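import Cfsg.Agent.H50.RG.LStmts
import Cfsg.Agent.H91.Symp

/-!
# S5714, RG-L05: Witt's theorem for symplectic spaces (helper358)
-/

set_option autoImplicit false

namespace Cfsg.Agent.H358.RG

open Module Cfsg.Agent.H847.Bs Cfsg.Agent.H50.RG

section

variable {F V : Type*} [Field F] [AddCommGroup V] [Module F V]

/-- the bilinear form -/
def spB {Φ : Frm F V} (h : IsSp Φ) : LinearMap.BilinForm F V :=
  LinearMap.mk₂ F Φ.B Φ.add_left Φ.smul_left Φ.add_right (fun a x y => by rw [Φ.smul_right, h.s]; rfl)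

theorem spB_apply {Φ : Frm F V} (h : IsSp Φ) (x y : V) : spB h x y = Φ.B x y := rfl

theorem sForm {Φ : Frm F V} (h : IsSp Φ) : H91.Symp.SForm (spB h) where
  nd := ⟨fun x hx => h.nd x hx, fun x hx => h.nd x fun y => Φ.refl _ _ (hx y)⟩
  alt x := h.alt x

end

/-- RG-L05 -/
theorem l05 : L05 := by
  intro F V _ _ _ _ _ Φ h k₀ _ k _ b b' li li' hb hb'
  have h1 : ∀ i, b i ∈ Submodule.span F (Set.range b) := fun i => Submodule.subset_span ⟨i, rfl⟩
  have h2 : ∀ i, b' i ∈ Submodule.span F (Set.range b') := fun i => Submodule.subset_span ⟨i, rfl⟩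
  obtain ⟨g, hg, hgb⟩ := H91.Symp.witt_family (sForm h) li li' fun i j =>
    (hb.1 _ (h1 i) _ (h1 j)).trans (hb'.1 _ (h2 i) _ (h2 j)).symm
  exact ⟨g, ⟨hg, fun x => by rw [h.q, h.q]⟩, hgb⟩

end Cfsg.Agent.H358.RG
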